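import Cfsg.Agent.Lib.T3.Net
import Cfsg.Agent.Lib.Calc.VecPM
import Cfsg.Agent.Lib.PGroup.AutGL
import Cfsg.Agent.Lib.Small.Basic

/-! Permutation models of affine groups, centralisers in models (S3159, helper21). -/

set_option autoImplicit false

namespace Cfsg.Lib.S83

open Cfsg.Lib.Calc Cfsg.Lib.Grp Cfsg.Lib.T2 Cfsg.Lib.T3 Cfsg.Lib.Mathieu Cfsg.Lib.ES Subgroup
open Cfsg.Lib.Golay (force force_eq memL memL_iff)

theorem card_aut_p {A : Type*} [Group A] [Finite A] {p n : ℕ} [Fact p.Prime] (hc : ∀ x y : A, x * y = y * x) (he : ∀ x : A, x ^ p = 1)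
    (hn : Nat.card A ≤ p ^ n) : Nat.card (MulAut A) ≤ ∏ i : Fin n, (p ^ n - p ^ (i : ℕ)) := by
  obtain ⟨f, hf⟩ := PGroup.exists_aut_hom_GL hc he hn
  have := Nat.card_le_card_of_injective f hf
  rwa [Matrix.card_GL_field, ZMod.card] at this

theorem genW_el {G : Type*} [Group G] {γ : ℕ → G} {l : List W} {p : ℕ} (c : ∀ a ∈ l, ∀ b ∈ l, a.ev γ * b.ev γ = b.ev γ * a.ev γ)
    (e : ∀ a ∈ l, a.ev γ ^ p = 1) : (∀ x ∈ genW γ l, ∀ y ∈ genW γ l, x * y = y * x) ∧ ∀ x ∈ genW γ l, x ^ p = 1 := by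
  have c : ∀ x ∈ genW γ l, ∀ y ∈ genW γ l, x * y = y * x := fun x hx y hy =>
    (genW_le.2 (fun a ha => mem_centralizer_genW.2 (c a ha)) hx y hy).symm
  refine ⟨c, fun x hx => (genW_le (H := ⟨⟨⟨{x | x ∈ genW γ l ∧ x ^ p = 1}, ?_⟩, one_mem _, one_pow _⟩, ?_⟩).2
    (fun a ha => ⟨mem_genW γ ha, e a ha⟩) hx).2⟩
  · rintro a b ⟨h, i⟩ ⟨j, k⟩
    exact ⟨mul_mem h j, by rw [Commute.mul_pow (c a h b j), i, k, one_mul]⟩
  · rintro a ⟨h, i⟩
    exact ⟨inv_mem h, by rw [inv_pow, i, inv_one]⟩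

variable {P : PM} [NeZero P.n]

/-- subgroup `j` is elementary abelian of order at most `p ^ n`, transitive, normalised by subgroup `i` -/
noncomputable def affB (P : PM) (i j p n : ℕ) : Bool :=
  band (band (allP (P.ws i) fun a => allP (P.ws j) fun b => force (wcode P.n P.w P.env (cj a b)) (memCh P.n P.w (P.Ls j)))
    (allP (P.ws j) fun a => band (P.weq (.pow a p) (.l 0)) (allP (P.ws j) fun b => P.weq (.mul a b) (.mul b a))))
    (band (Nat.ble (chSize (P.Ls j)) (p ^ n)) (allLt P.n fun x => memL x ((flat (P.Ls j)).map fun c => get P.w c 0)))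

theorem aff_card (h0 : P.ok0 = true) {i j p n : ℕ} [Fact p.Prime] (c : Ch P j) (e : affB P i j p n = true) :
    Nat.card (P.K i) ≤ Nat.card ↥(centralizer (P.K j : Set (Equiv.Perm (Fin P.n))) ⊓ P.K i) * ∏ i : Fin n, (p ^ n - p ^ (i : ℕ)) ∧
      ∀ g ∈ centralizer (P.K j : Set (Equiv.Perm (Fin P.n))), g • finPt P.n 0 = finPt P.n 0 → g = 1 := by
  have b := bounds h0
  have r : P.Pr := ⟨b.1, b.2, rp_of_ok0 h0⟩
  simp only [affB, band_eq_true, allP_iff, allLt_iff, ble_iff, force_eq, memL_iff] at e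
  obtain ⟨⟨e1, e2⟩, e3, e4⟩ := e
  have n : P.K i ≤ normalizer (P.K j : Set _) := genW_le_normalizer fun a ha d hd =>
    (c.tst (inj_finPt _) (faithful_finPt _) b.1 b.2 _ _ (r.word (cj a d))).2 (e1 a ha d hd)
  have l := genW_el (γ := P.gam) (p := p) (fun a ha d hd => r.eq (s := .mul a d) (t := .mul d a) ((e2 a ha).2 d hd))
    fun a ha => (r.eq (s := .pow a p) (e2 a ha).1).trans r.zero
  refine ⟨?_, fun g m f => faithful_finPt _ g fun x hx => ?_⟩
  · have a := card_aut_p (A := P.K j) (fun x y => Subtype.ext (l.1 _ x.2 _ y.2)) (fun x => Subtype.ext (l.2 _ x.2))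
      ((c.card (inj_finPt _)).trans_le e3)
    let φ := (P.K j).normalizerMonoidHom.comp (inclusion n)
    rw [← φ.ker.card_mul_index, index_ker]
    refine Nat.mul_le_mul (Nat.card_le_card_of_injective (fun x : φ.ker => (⟨x.1.1, fun y hy =>
      (mul_inv_eq_iff_eq_mul.1 (congrArg Subtype.val (MulEquiv.congr_fun x.2 ⟨y, hy⟩))).symm, x.1.2⟩ : ↥(centralizer (P.K j : Set _) ⊓ P.K i)))
      fun x y h => Subtype.ext (Subtype.ext (congrArg (Subtype.val : ↥(_ ⊓ P.K i) → _) h))) ((card_le_card_group _).trans a)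
  · obtain ⟨d, hd, rfl⟩ := List.mem_map.1 (e4 x hx)
    obtain ⟨k, hk, q⟩ := c.in_flat d hd
    rw [← (q.2 0 (by omega)).2, ← mul_smul, ← m k hk, mul_smul, f]

/-- the full affine group -/
theorem ch_aff (h0 : P.ok0 = true) {i j p n : ℕ} [Fact p.Prime] (c : Ch P j) (e : band (affB P i j p n) (band (okO P i)
    (Nat.ble (P.n * ∏ i : Fin n, (p ^ n - p ^ (i : ℕ))) (chSize (P.Ls i)))) = true) : Ch P i := by
  rw [band_eq_true, band_eq_true, ble_iff] at e
  obtain ⟨a, b⟩ := aff_card h0 c e.1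
  refine ch_of_okO h0 e.2.1 (a.trans (le_trans (Nat.mul_le_mul_right _ ?_) e.2.2))
  refine (Nat.card_le_card_of_injective (fun g : ↥(centralizer (P.K j : Set _) ⊓ P.K i) => g.1 • finPt P.n 0) fun x y h => Subtype.ext ?_).trans (by simp)
  exact inv_mul_eq_one.1 (b _ (mul_mem (inv_mem x.2.1) y.2.1) (by rw [mul_smul, ← show _ = y.1 • _ from h, inv_smul_smul]))

/-- the full linear group -/
theorem ch_lin (h0 : P.ok0 = true) {i j p n : ℕ} [Fact p.Prime] (c : Ch P j) (e : band (band (affB P i j p n)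
    (allP (P.ws i) fun a => Nat.beq (wpt P.n P.w P.env a false 0) 0)) (band (okO P i)
    (Nat.ble (∏ i : Fin n, (p ^ n - p ^ (i : ℕ))) (chSize (P.Ls i)))) = true) : Ch P i := by
  simp only [band_eq_true, ble_iff, allP_iff, beq_iff] at e
  obtain ⟨a, b⟩ := aff_card h0 c e.1.1
  have s : P.K i ≤ MulAction.stabilizer _ (finPt P.n 0) := genW_le.2 fun t ht => by
    have := ((act_wpt (inj_finPt _) (bounds h0).2 (rp_of_ok0 h0) t).1 0 (by have := (bounds h0).1; omega)).2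
    rwa [e.1.2 t ht] at this
  rw [show _ ⊓ P.K i = ⊥ from eq_bot_iff.2 fun g m => mem_bot.2 (b g m.1 (s m.2)), card_bot, one_mul] at a
  exact ch_of_okO h0 e.2.1 (a.trans e.2.2)

variable {G : Type*} [Group G] {γ : ℕ → G} {k : ℕ} {N : List W}

/-- subgroup `i` is the centraliser of `s` in subgroup `j` -/
theorem gf_cen (g : Gf P γ k N) (j i : ℕ) (s : W) (e : P.cC j i s = true) {y : G} (m : y ∈ genW γ (P.ws j))
    (c : y * s.ev γ = s.ev γ * y) (e' : band (tyB P k N (.all j 40 [(s, s)] (.mem i (.l 40))))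
      (allP (P.ws i) fun t => P.eval (.mem j t)) = true := by decide +kernel) : y ∈ genW γ (P.ws i) := by
  rw [band_eq_true, allP_iff] at e'
  have a := (g.ok.pr.cen (g.ok.chn j) (genW_le.2 fun t ht => g.ok.holds (e'.2 t ht)) e).2
  exact (g.holds_iff e'.1).2 (fun x hx f => a.ge ⟨hx, mem_centralizer_singleton_iff.2 f⟩) y m c

end Cfsg.Lib.S83
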