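import Cfsg.Agent.Lib.S83.M
import Cfsg.Agent.Lib.S83.Aff

/-! Facts in the model of `Sp₆(2)` (generated by tools/s83/sx.py). -/

set_option autoImplicit false
set_option maxRecDepth 1000000
set_option maxHeartbeats 0

namespace Cfsg.Lib.S83

open Cfsg.Lib.Calc Cfsg.Lib.Grp Cfsg.Lib.T2 Cfsg.Lib.T3

/-- a formula -/
def sx_nB_f : Fm := .all 1 40 [] (.all 1 41 [] (.all 0 42 [(.l 1, .l 40), (.l 2, .l 41)] (.mem 2 (.l 42))))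

theorem sx_nB_ev : sx.eval sx_nB_f = true := by decide +kernel

theorem sx_nB {G : Type*} [Group G] {γ : ℕ → G} {k : ℕ} {N : List W} (g : Gf sx γ k N)
    (e : tyB sx k N sx_nB_f = true := by decide +kernel) :
    ∀ y ∈ genW γ (sx.ws 1), ∀ v ∈ genW γ (sx.ws 1), ∀ l ∈ genW γ (sx.ws 0), l * γ 1 = y * l → l * γ 2 = v * l → l ∈ genW γ (sx.ws 2) :=
  g.transfer e sx_nB_ev

/-- a formula -/
def sx_cB_f : Fm := .all 0 40 [(.l 1, .l 1), (.l 2, .l 2), (.l 3, .l 3)] (.mem 1 (.l 40))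

theorem sx_cB_ev : sx.eval sx_cB_f = true := by decide +kernel

theorem sx_cB {G : Type*} [Group G] {γ : ℕ → G} {k : ℕ} {N : List W} (g : Gf sx γ k N)
    (e : tyB sx k N sx_cB_f = true := by decide +kernel) :
    ∀ l ∈ genW γ (sx.ws 0), l * γ 1 = γ 1 * l → l * γ 2 = γ 2 * l → l * γ 3 = γ 3 * l → l ∈ genW γ (sx.ws 1) :=
  g.transfer e sx_cB_ev

/-- a formula -/
def sx_cD_f : Fm := .all 0 40 [(.mul (.l 1) (.inv (.l 2)), .mul (.l 1) (.inv (.l 2))), (.mul (.l 2) (.inv (.l 3)), .mul (.l 2) (.inv (.l 3)))] (.mem 1 (.l 40))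

theorem sx_cD_ev : sx.eval sx_cD_f = true := by decide +kernel

theorem sx_cD {G : Type*} [Group G] {γ : ℕ → G} {k : ℕ} {N : List W} (g : Gf sx γ k N)
    (e : tyB sx k N sx_cD_f = true := by decide +kernel) :
    ∀ l ∈ genW γ (sx.ws 0), l * (γ 1 * (γ 2)⁻¹) = γ 1 * (γ 2)⁻¹ * l → l * (γ 2 * (γ 3)⁻¹) = γ 2 * (γ 3)⁻¹ * l → l ∈ genW γ (sx.ws 1) :=
  g.transfer e sx_cD_ev

/-- a formula -/
def sx_zL_f : Fm := .all 0 40 [(.l 1, .l 1), (.l 4, .l 4), (.l 9, .l 9), (.l 7, .l 7), (.l 8, .l 8)] (.one (.l 40))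

theorem sx_zL_ev : sx.eval sx_zL_f = true := by decide +kernel

theorem sx_zL {G : Type*} [Group G] {γ : ℕ → G} {k : ℕ} {N : List W} (g : Gf sx γ k N)
    (e : tyB sx k N sx_zL_f = true := by decide +kernel) :
    ∀ l ∈ genW γ (sx.ws 0), l * γ 1 = γ 1 * l → l * γ 4 = γ 4 * l → l * γ 9 = γ 9 * l → l * γ 7 = γ 7 * l → l * γ 8 = γ 8 * l → l = 1 :=
  g.transfer e sx_zL_ev

/-- a formula -/
def sx_wr_f : Fm := .all 3 40 [] (.or (.mem 1 (.l 40)) (.all 1 41 [(.l 40, .l 40)] (.or (.one (.l 41)) (.or (.eq (.l 41) (.mul (.mul (.l 1) (.l 2)) (.l 3))) (.eq (.l 41) (.inv (.mul (.mul (.l 1) (.l 2)) (.l 3))))))))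

theorem sx_wr_ev : sx.eval sx_wr_f = true := by decide +kernel

theorem sx_wr {G : Type*} [Group G] {γ : ℕ → G} {k : ℕ} {N : List W} (g : Gf sx γ k N)
    (e : tyB sx k N sx_wr_f = true := by decide +kernel) :
    ∀ y ∈ genW γ (sx.ws 3), y ∈ genW γ (sx.ws 1) ∨ (∀ j ∈ genW γ (sx.ws 1), j * y = y * j → j = 1 ∨ j = γ 1 * γ 2 * γ 3 ∨ j = (γ 1 * γ 2 * γ 3)⁻¹) :=
  g.transfer e sx_wr_ev

/-- a formula -/
def sx_o3_f : Fm := .all 3 40 [] (.imp (.one (.pow (.l 40) 3)) (.or (.mem 1 (.l 40)) (.ex 2 41 [(.l 40, .mul (.l 7) (.l 8))] (.mem 1 (.mul (.mul (.mul (.mul (.mul (.mul (.mul (.mul (.mul (.mul (.mul (.mul (.mul (.mul (.mul (.mul (.mul (.mul (.l 9) (.l 1)) (.inv (.l 2))) (.l 8)) (.l 9)) (.inv (.l 1))) (.l 2)) (.l 9)) (.l 8)) (.l 7)) (.l 9)) (.l 1)) (.l 8)) (.l 9)) (.inv (.l 2))) (.l 41)) (.l 40)) (.inv (.l 41))) (.inv (.mul (.mul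 (.mul (.mul (.mul (.mul (.mul (.mul (.mul (.mul (.mul (.mul (.mul (.mul (.l 9) (.l 1)) (.inv (.l 2))) (.l 8)) (.l 9)) (.inv (.l 1))) (.l 2)) (.l 9)) (.l 8)) (.l 7)) (.l 9)) (.l 1)) (.l 8)) (.l 9)) (.inv (.l 2)))))))))

theorem sx_o3_ev : sx.eval sx_o3_f = true := by decide +kernel

theorem sx_o3 {G : Type*} [Group G] {γ : ℕ → G} {k : ℕ} {N : List W} (g : Gf sx γ k N)
    (e : tyB sx k N sx_o3_f = true := by decide +kernel) :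
    ∀ y ∈ genW γ (sx.ws 3), y ^ 3 = 1 → y ∈ genW γ (sx.ws 1) ∨ (∃ l ∈ genW γ (sx.ws 2), l * y = γ 7 * γ 8 * l ∧ γ 9 * γ 1 * (γ 2)⁻¹ * γ 8 * γ 9 * (γ 1)⁻¹ * γ 2 * γ 9 * γ 8 * γ 7 * γ 9 * γ 1 * γ 8 * γ 9 * (γ 2)⁻¹ * l * y * l⁻¹ * (γ 9 * γ 1 * (γ 2)⁻¹ * γ 8 * γ 9 * (γ 1)⁻¹ * γ 2 * γ 9 * γ 8 * γ 7 * γ 9 * γ 1 * γ 8 * γ 9 * (γ 2)⁻¹)⁻¹ ∈ genW γ (sx.ws 1)) :=
  g.transfer e sx_o3_ev

/-- a formula -/
def sx_cl3_f : Fm := .all 1 40 [] (.or (.one (.l 40)) (.or (.ex 2 41 [(.l 3, .l 40)] (.tt)) (.or (.ex 2 41 [(.mul (.l 1) (.l 2), .l 40)] (.tt)) (.ex 2 41 [(.mul (.mul (.l 1) (.l 2)) (.l 3), .l 40)] (.tt)))))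

theorem sx_cl3_ev : sx.eval sx_cl3_f = true := by decide +kernel

theorem sx_cl3 {G : Type*} [Group G] {γ : ℕ → G} {k : ℕ} {N : List W} (g : Gf sx γ k N)
    (e : tyB sx k N sx_cl3_f = true := by decide +kernel) :
    ∀ y ∈ genW γ (sx.ws 1), y = 1 ∨ (∃ l ∈ genW γ (sx.ws 2), l * γ 3 = y * l ∧ True) ∨ (∃ l ∈ genW γ (sx.ws 2), l * (γ 1 * γ 2) = y * l ∧ True) ∨ (∃ l ∈ genW γ (sx.ws 2), l * (γ 1 * γ 2 * γ 3) = y * l ∧ True) :=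
  g.transfer e sx_cl3_ev

/-- a formula -/
def sx_e8_f : Fm := .all 7 40 [] (.one (.pow (.l 40) 8))

theorem sx_e8_ev : sx.eval sx_e8_f = true := by decide +kernel

theorem sx_e8 {G : Type*} [Group G] {γ : ℕ → G} {k : ℕ} {N : List W} (g : Gf sx γ k N)
    (e : tyB sx k N sx_e8_f = true := by decide +kernel) :
    ∀ y ∈ genW γ (sx.ws 7), y ^ 8 = 1 :=
  g.transfer e sx_e8_ev

/-- a formula -/
def sx_ca_f : Fm := .all 0 40 [(.l 1, .l 1)] (.imp (.one (.mul (.l 40) (.l 40))) (.eq (.mul (.l 40) (.l 4)) (.mul (.l 4) (.l 40))))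

theorem sx_ca_ev : sx.eval sx_ca_f = true := by decide +kernel

theorem sx_ca {G : Type*} [Group G] {γ : ℕ → G} {k : ℕ} {N : List W} (g : Gf sx γ k N)
    (e : tyB sx k N sx_ca_f = true := by decide +kernel) :
    ∀ y ∈ genW γ (sx.ws 0), y * γ 1 = γ 1 * y → y * y = 1 → y * γ 4 = γ 4 * y :=
  g.transfer e sx_ca_ev

/-- a formula -/
def sx_n1_f : Fm := .all 0 40 [(.l 2, .l 2), (.l 3, .l 3)] (.imp (.one (.mul (.l 40) (.l 40))) (.imp (.one (.pow (.mul (.mul (.mul (.l 40) (.l 1)) (.l 40)) (.inv (.l 1))) 8)) (.one (.l 40))))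

theorem sx_n1_ev : sx.eval sx_n1_f = true := by decide +kernel

theorem sx_n1 {G : Type*} [Group G] {γ : ℕ → G} {k : ℕ} {N : List W} (g : Gf sx γ k N)
    (e : tyB sx k N sx_n1_f = true := by decide +kernel) :
    ∀ y ∈ genW γ (sx.ws 0), y * γ 2 = γ 2 * y → y * γ 3 = γ 3 * y → y * y = 1 → (y * γ 1 * y * (γ 1)⁻¹) ^ 8 = 1 → y = 1 :=
  g.transfer e sx_n1_ev

/-- a formula -/
def sx_n2_f : Fm := .all 0 40 [(.l 1, .l 1), (.mul (.l 2) (.inv (.l 3)), .mul (.l 2) (.inv (.l 3)))] (.imp (.one (.mul (.l 40) (.l 40))) (.imp (.one (.pow (.mul (.mul (.mul (.l 40) (.l 2)) (.l 40)) (.inv (.l 2))) 8)) (.one (.l 40))))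

theorem sx_n2_ev : sx.eval sx_n2_f = true := by decide +kernel

theorem sx_n2 {G : Type*} [Group G] {γ : ℕ → G} {k : ℕ} {N : List W} (g : Gf sx γ k N)
    (e : tyB sx k N sx_n2_f = true := by decide +kernel) :
    ∀ y ∈ genW γ (sx.ws 0), y * γ 1 = γ 1 * y → y * (γ 2 * (γ 3)⁻¹) = γ 2 * (γ 3)⁻¹ * y → y * y = 1 → (y * γ 2 * y * (γ 2)⁻¹) ^ 8 = 1 → y = 1 :=
  g.transfer e sx_n2_ev

/-- a formula -/
def sx_cBe_f : Fm := .all 1 40 [(.l 5, .l 5), (.l 6, .l 6)] (.or (.one (.l 40)) (.or (.eq (.l 40) (.l 1)) (.eq (.l 40) (.inv (.l 1)))))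

theorem sx_cBe_ev : sx.eval sx_cBe_f = true := by decide +kernel

theorem sx_cBe {G : Type*} [Group G] {γ : ℕ → G} {k : ℕ} {N : List W} (g : Gf sx γ k N)
    (e : tyB sx k N sx_cBe_f = true := by decide +kernel) :
    ∀ y ∈ genW γ (sx.ws 1), y * γ 5 = γ 5 * y → y * γ 6 = γ 6 * y → y = 1 ∨ y = γ 1 ∨ y = (γ 1)⁻¹ :=
  g.transfer e sx_cBe_ev

theorem sx_cdef_ev : sx.cC 0 14 (.mul (.mul (.l 4) (.l 5)) (.l 6)) = true := by decide +kernel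

theorem sx_cdef {G : Type*} [Group G] {γ : ℕ → G} {k : ℕ} {N : List W} (g : Gf sx γ k N)
    (e : band (tyB sx k N (.all 0 40 [(.mul (.mul (.l 4) (.l 5)) (.l 6), .mul (.mul (.l 4) (.l 5)) (.l 6))] (.mem 14 (.l 40)))) (allP (sx.ws 14) fun t => sx.eval (.mem 0 t)) = true := by
      decide +kernel) :
    ∀ y ∈ genW γ (sx.ws 0), y * (γ 4 * γ 5 * γ 6) = γ 4 * γ 5 * γ 6 * y → y ∈ genW γ (sx.ws 14) :=
  fun _ m c => gf_cen g 0 14 (.mul (.mul (.l 4) (.l 5)) (.l 6)) sx_cdef_ev m c e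

/-- a formula -/
def sx_mrf_f : Fm := .eq (.mul (.mul (.mul (.mul (.mul (.mul (.mul (.mul (.mul (.mul (.mul (.mul (.mul (.mul (.mul (.l 1) (.l 2)) (.l 9)) (.l 8)) (.l 9)) (.l 1)) (.l 2)) (.l 9)) (.l 8)) (.l 9)) (.l 1)) (.l 2)) (.l 9)) (.l 8)) (.mul (.l 7) (.l 6))) (.inv (.mul (.mul (.mul (.mul (.mul (.mul (.mul (.mul (.mul (.mul (.mul (.mul (.mul (.l 1) (.l 2)) (.l 9)) (.l 8)) (.l 9)) (.l 1)) (.l 2)) (.l 9)) (.l 8)) (.l 9)) (.l 1)) (.l 2)) (.l 9)) (.l 8)))) (.mul (.mul (.l 4) (.l 5)) (.l 6))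

theorem sx_mrf_ev : sx.eval sx_mrf_f = true := by decide +kernel

theorem sx_mrf {G : Type*} [Group G] {γ : ℕ → G} {k : ℕ} {N : List W} (g : Gf sx γ k N)
    (e : tyB sx k N sx_mrf_f = true := by decide +kernel) :
    γ 1 * γ 2 * γ 9 * γ 8 * γ 9 * γ 1 * γ 2 * γ 9 * γ 8 * γ 9 * γ 1 * γ 2 * γ 9 * γ 8 * (γ 7 * γ 6) * (γ 1 * γ 2 * γ 9 * γ 8 * γ 9 * γ 1 * γ 2 * γ 9 * γ 8 * γ 9 * γ 1 * γ 2 * γ 9 * γ 8)⁻¹ = γ 4 * γ 5 * γ 6 :=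
  g.transfer e sx_mrf_ev

end Cfsg.Lib.S83
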