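import Cfsg.Agent.Lib.S83.M
import Cfsg.Agent.Lib.S83.Aff

/-! Facts in the model of `Sp₆(2)` (generated by tools/s83/sx.py). -/

set_option autoImplicit false
set_option maxRecDepth 1000000
set_option maxHeartbeats 0

namespace Cfsg.Lib.S83

open Cfsg.Lib.Calc Cfsg.Lib.Grp Cfsg.Lib.T2 Cfsg.Lib.T3

/-- a formula -/
def sx_xe_f : Fm := .all 0 40 [(.l 2, .l 2), (.l 6, .l 6)] (.imp (.one (.pow (.l 40) 8)) (.imp (.one (.pow (.mul (.mul (.mul (.l 40) (.l 1)) (.l 40)) (.inv (.l 1))) 8)) (.mem 8 (.l 40))))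

theorem sx_xe_ev : sx.eval sx_xe_f = true := by decide +kernel

theorem sx_xe {G : Type*} [Group G] {γ : ℕ → G} {k : ℕ} {N : List W} (g : Gf sx γ k N)
    (e : tyB sx k N sx_xe_f = true := by decide +kernel) :
    ∀ y ∈ genW γ (sx.ws 0), y * γ 2 = γ 2 * y → y * γ 6 = γ 6 * y → y ^ 8 = 1 → (y * γ 1 * y * (γ 1)⁻¹) ^ 8 = 1 → y ∈ genW γ (sx.ws 8) :=
  g.transfer e sx_xe_ev

/-- a formula -/
def sx_d3_f : Fm := .all 0 40 [(.mul (.l 1) (.inv (.l 2)), .mul (.l 1) (.inv (.l 2))), (.l 6, .l 6)] (.imp (.one (.pow (.l 40) 8)) (.imp (.one (.pow (.mul (.mul (.mul (.l 40) (.l 1)) (.l 40)) (.inv (.l 1))) 8)) (.or (.one (.l 40)) (.eq (.l 40) (.l 6)))))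

theorem sx_d3_ev : sx.eval sx_d3_f = true := by decide +kernel

theorem sx_d3 {G : Type*} [Group G] {γ : ℕ → G} {k : ℕ} {N : List W} (g : Gf sx γ k N)
    (e : tyB sx k N sx_d3_f = true := by decide +kernel) :
    ∀ y ∈ genW γ (sx.ws 0), y * (γ 1 * (γ 2)⁻¹) = γ 1 * (γ 2)⁻¹ * y → y * γ 6 = γ 6 * y → y ^ 8 = 1 → (y * γ 1 * y * (γ 1)⁻¹) ^ 8 = 1 → y = 1 ∨ y = γ 6 :=
  g.transfer e sx_d3_ev

/-- a formula -/
def sx_wr1_f : Fm := .all 0 40 [(.l 1, .l 2), (.l 4, .l 5), (.l 2, .l 1), (.l 5, .l 4), (.l 3, .l 3)] (.imp (.one (.mul (.l 40) (.l 40))) (.eq (.l 40) (.l 7)))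

theorem sx_wr1_ev : sx.eval sx_wr1_f = true := by decide +kernel

theorem sx_wr1 {G : Type*} [Group G] {γ : ℕ → G} {k : ℕ} {N : List W} (g : Gf sx γ k N)
    (e : tyB sx k N sx_wr1_f = true := by decide +kernel) :
    ∀ y ∈ genW γ (sx.ws 0), y * γ 1 = γ 2 * y → y * γ 4 = γ 5 * y → y * γ 2 = γ 1 * y → y * γ 5 = γ 4 * y → y * γ 3 = γ 3 * y → y * y = 1 → y = γ 7 :=
  g.transfer e sx_wr1_ev

/-- a formula -/
def sx_wq_f : Fm := .all 0 40 [(.l 3, .l 3), (.l 4, .l 4), (.l 5, .l 5), (.l 7, .l 7)] (.imp (.one (.mul (.l 40) (.l 40))) (.imp (.one (.pow (.mul (.l 40) (.l 1)) 4)) (.imp (.not (.one (.pow (.mul (.l 40) (.l 1)) 2))) (.eq (.l 40) (.l 9)))))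

theorem sx_wq_ev : sx.eval sx_wq_f = true := by decide +kernel

theorem sx_wq {G : Type*} [Group G] {γ : ℕ → G} {k : ℕ} {N : List W} (g : Gf sx γ k N)
    (e : tyB sx k N sx_wq_f = true := by decide +kernel) :
    ∀ y ∈ genW γ (sx.ws 0), y * γ 3 = γ 3 * y → y * γ 4 = γ 4 * y → y * γ 5 = γ 5 * y → y * γ 7 = γ 7 * y → y * y = 1 → (y * γ 1) ^ 4 = 1 → (y * γ 1) ^ 2 ≠ 1 → y = γ 9 :=
  g.transfer e sx_wq_ev

/-- a formula -/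
def sx_cP_f : Fm := .all 0 40 [(.mul (.l 1) (.inv (.l 2)), .mul (.l 1) (.inv (.l 2))), (.mul (.l 2) (.inv (.l 3)), .mul (.l 2) (.inv (.l 3))), (.mul (.l 7) (.l 8), .mul (.l 7) (.l 8))] (.or (.one (.l 40)) (.or (.eq (.l 40) (.mul (.mul (.l 1) (.l 2)) (.l 3))) (.eq (.l 40) (.inv (.mul (.mul (.l 1) (.l 2)) (.l 3))))))

theorem sx_cP_ev : sx.eval sx_cP_f = true := by decide +kernel

theorem sx_cP {G : Type*} [Group G] {γ : ℕ → G} {k : ℕ} {N : List W} (g : Gf sx γ k N)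
    (e : tyB sx k N sx_cP_f = true := by decide +kernel) :
    ∀ y ∈ genW γ (sx.ws 0), y * (γ 1 * (γ 2)⁻¹) = γ 1 * (γ 2)⁻¹ * y → y * (γ 2 * (γ 3)⁻¹) = γ 2 * (γ 3)⁻¹ * y → y * (γ 7 * γ 8) = γ 7 * γ 8 * y → y = 1 ∨ y = γ 1 * γ 2 * γ 3 ∨ y = (γ 1 * γ 2 * γ 3)⁻¹ :=
  g.transfer e sx_cP_ev

theorem sx_cz_ev : sx.cC 0 6 (.mul (.mul (.l 1) (.l 2)) (.l 3)) = true := by decide +kernel

theorem sx_cz {G : Type*} [Group G] {γ : ℕ → G} {k : ℕ} {N : List W} (g : Gf sx γ k N)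
    (e : band (tyB sx k N (.all 0 40 [(.mul (.mul (.l 1) (.l 2)) (.l 3), .mul (.mul (.l 1) (.l 2)) (.l 3))] (.mem 6 (.l 40)))) (allP (sx.ws 6) fun t => sx.eval (.mem 0 t)) = true := by
      decide +kernel) :
    ∀ y ∈ genW γ (sx.ws 0), y * (γ 1 * γ 2 * γ 3) = γ 1 * γ 2 * γ 3 * y → y ∈ genW γ (sx.ws 6) :=
  fun _ m c => gf_cen g 0 6 (.mul (.mul (.l 1) (.l 2)) (.l 3)) sx_cz_ev m c e

/-- a formula -/
def sx_c72_f : Fm := .all 6 40 [] (.one (.pow (.l 40) 72))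

theorem sx_c72_ev : sx.eval sx_c72_f = true := by decide +kernel

theorem sx_c72 {G : Type*} [Group G] {γ : ℕ → G} {k : ℕ} {N : List W} (g : Gf sx γ k N)
    (e : tyB sx k N sx_c72_f = true := by decide +kernel) :
    ∀ y ∈ genW γ (sx.ws 6), y ^ 72 = 1 :=
  g.transfer e sx_c72_ev

/-- a formula -/
def sx_cab_f : Fm := .all 0 40 [(.l 1, .l 1), (.l 2, .l 2)] (.mem 13 (.l 40))

theorem sx_cab_ev : sx.eval sx_cab_f = true := by decide +kernel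

theorem sx_cab {G : Type*} [Group G] {γ : ℕ → G} {k : ℕ} {N : List W} (g : Gf sx γ k N)
    (e : tyB sx k N sx_cab_f = true := by decide +kernel) :
    ∀ y ∈ genW γ (sx.ws 0), y * γ 1 = γ 1 * y → y * γ 2 = γ 2 * y → y ∈ genW γ (sx.ws 13) :=
  g.transfer e sx_cab_ev

/-- a formula -/
def sx_q8_f : Fm := .all 5 40 [] (.or (.one (.l 40)) (.or (.eq (.l 40) (.l 7)) (.eq (.mul (.l 40) (.l 40)) (.l 7))))

theorem sx_q8_ev : sx.eval sx_q8_f = true := by decide +kernel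

theorem sx_q8 {G : Type*} [Group G] {γ : ℕ → G} {k : ℕ} {N : List W} (g : Gf sx γ k N)
    (e : tyB sx k N sx_q8_f = true := by decide +kernel) :
    ∀ y ∈ genW γ (sx.ws 5), y = 1 ∨ y = γ 7 ∨ y * y = γ 7 :=
  g.transfer e sx_q8_ev

/-- a formula -/
def sx_P_f : Fm := .all 4 40 [] (.and (.one (.pow (.l 40) 3)) (.and (.or (.one (.mul (.l 40) (.mul (.mul (.l 7) (.l 40)) (.inv (.l 7))))) (.or (.eq (.mul (.l 40) (.mul (.mul (.l 7) (.l 40)) (.inv (.l 7)))) (.mul (.mul (.l 1) (.l 2)) (.l 3))) (.eq (.mul (.l 40) (.mul (.mul (.l 7) (.l 40)) (.inv (.l 7)))) (.inv (.mul (.mul (.l 1) (.l 2)) (.l 3)))))) (.all 4 41 [] (.or (.one (.mul (.mul (.mul (.l 40) (.l 41)) (.inv (.l 40))) (.inv (.l 41)))) (.or (.eq (.mul (.mul (.mul (.l 40) (.l 41)) (.inv (.l 40))) (.inv (.l 41))) (.mul (.mul (.l 1) (.l 2)) (.l 3))) (.eq (.mul (.mul (.mul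 (.l 40) (.l 41)) (.inv (.l 40))) (.inv (.l 41))) (.inv (.mul (.mul (.l 1) (.l 2)) (.l 3)))))))))

theorem sx_P_ev : sx.eval sx_P_f = true := by decide +kernel

theorem sx_P {G : Type*} [Group G] {γ : ℕ → G} {k : ℕ} {N : List W} (g : Gf sx γ k N)
    (e : tyB sx k N sx_P_f = true := by decide +kernel) :
    ∀ y ∈ genW γ (sx.ws 4), y ^ 3 = 1 ∧ (y * (γ 7 * y * (γ 7)⁻¹) = 1 ∨ y * (γ 7 * y * (γ 7)⁻¹) = γ 1 * γ 2 * γ 3 ∨ y * (γ 7 * y * (γ 7)⁻¹) = (γ 1 * γ 2 * γ 3)⁻¹) ∧ (∀ v ∈ genW γ (sx.ws 4), y * v * y⁻¹ * v⁻¹ = 1 ∨ y * v * y⁻¹ * v⁻¹ = γ 1 * γ 2 * γ 3 ∨ y * v * y⁻¹ * v⁻¹ = (γ 1 * γ 2 * γ 3)⁻¹) :=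
  g.transfer e sx_P_ev

/-- a formula -/
def sx_xe2_f : Fm := .all 8 40 [] (.or (.one (.l 40)) (.or (.eq (.l 40) (.l 6)) (.or (.eq (.mul (.mul (.mul (.mul (.l 4) (.l 6)) (.l 8)) (.l 9)) (.l 8)) (.l 40)) (.or (.eq (.mul (.mul (.mul (.mul (.l 4) (.l 6)) (.l 8)) (.l 9)) (.l 8)) (.mul (.mul (.l 1) (.l 40)) (.inv (.l 1)))) (.or (.eq (.mul (.mul (.mul (.mul (.l 4) (.l 6)) (.l 8)) (.l 9)) (.l 8)) (.mul (.mul (.inv (.l 1)) (.l 40)) (.l 1))) (.or (.eq (.mul (.mul (.mul (.mul (.l 4) (.l 6)) (.l 8)) (.l 9)) (.l 8)) (.mul (.l 6) (.l 40))) (.or (.eq (.mul (.mul (.mul (.mul (.l 4) (.l 6)) (.l 8)) (.l 9)) (.l 8)) (.mul (.l 6) (.mul (.mul (.l 1) (.l 40)) (.inv (.l 1))))) (.eq (.mul (.mul (.mul (.mul (.l 4) (.l 6)) (.l 8)) (.l 9)) (.l 8)) (.mul (.l 6) (.mul (.mul (.inv (.l 1)) (.l 40)) (.l 1)))))))))))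

theorem sx_xe2_ev : sx.eval sx_xe2_f = true := by decide +kernel

theorem sx_xe2 {G : Type*} [Group G] {γ : ℕ → G} {k : ℕ} {N : List W} (g : Gf sx γ k N)
    (e : tyB sx k N sx_xe2_f = true := by decide +kernel) :
    ∀ y ∈ genW γ (sx.ws 8), y = 1 ∨ y = γ 6 ∨ γ 4 * γ 6 * γ 8 * γ 9 * γ 8 = y ∨ γ 4 * γ 6 * γ 8 * γ 9 * γ 8 = γ 1 * y * (γ 1)⁻¹ ∨ γ 4 * γ 6 * γ 8 * γ 9 * γ 8 = (γ 1)⁻¹ * y * γ 1 ∨ γ 4 * γ 6 * γ 8 * γ 9 * γ 8 = γ 6 * y ∨ γ 4 * γ 6 * γ 8 * γ 9 * γ 8 = γ 6 * (γ 1 * y * (γ 1)⁻¹) ∨ γ 4 * γ 6 * γ 8 * γ 9 * γ 8 = γ 6 * ((γ 1)⁻¹ * y * γ 1) :=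
  g.transfer e sx_xe2_ev

theorem sx_cf_ev : sx.cC 0 12 (.l 6) = true := by decide +kernel

theorem sx_cf {G : Type*} [Group G] {γ : ℕ → G} {k : ℕ} {N : List W} (g : Gf sx γ k N)
    (e : band (tyB sx k N (.all 0 40 [(.l 6, .l 6)] (.mem 12 (.l 40)))) (allP (sx.ws 12) fun t => sx.eval (.mem 0 t)) = true := by
      decide +kernel) :
    ∀ y ∈ genW γ (sx.ws 0), y * γ 6 = γ 6 * y → y ∈ genW γ (sx.ws 12) :=
  fun _ m c => gf_cen g 0 12 (.l 6) sx_cf_ev m c e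

end Cfsg.Lib.S83
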