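import Cfsg.Agent.Lib.S83.M
import Cfsg.Agent.Lib.S83.Aff

/-! Facts in the model of `Sp₆(2)` (generated by tools/s83/sx.py). -/

set_option autoImplicit false
set_option maxRecDepth 1000000
set_option maxHeartbeats 0

namespace Cfsg.Lib.S83

open Cfsg.Lib.Calc Cfsg.Lib.Grp Cfsg.Lib.T2 Cfsg.Lib.T3

/-- a formula -/
def sx_r1_f : Fm := .all 0 40 [(.mul (.l 1) (.l 2), .mul (.l 1) (.l 2)), (.l 7, .l 7)] (.imp (.one (.pow (.l 40) 8)) (.imp (.one (.pow (.mul (.mul (.mul (.l 40) (.l 3)) (.l 40)) (.inv (.l 3))) 8)) (.or (.one (.l 40)) (.eq (.l 40) (.l 7)))))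

theorem sx_r1_ev : sx.eval sx_r1_f = true := by decide +kernel

theorem sx_r1 {G : Type*} [Group G] {γ : ℕ → G} {k : ℕ} {N : List W} (g : Gf sx γ k N)
    (e : tyB sx k N sx_r1_f = true := by decide +kernel) :
    ∀ y ∈ genW γ (sx.ws 0), y * (γ 1 * γ 2) = γ 1 * γ 2 * y → y * γ 7 = γ 7 * y → y ^ 8 = 1 → (y * γ 3 * y * (γ 3)⁻¹) ^ 8 = 1 → y = 1 ∨ y = γ 7 :=
  g.transfer e sx_r1_ev

/-- a formula -/
def sx_r2_f : Fm := .all 0 40 [(.l 3, .l 3), (.l 7, .l 7)] (.imp (.one (.pow (.l 40) 8)) (.imp (.one (.pow (.mul (.mul (.mul (.l 40) (.mul (.l 1) (.l 2))) (.l 40)) (.inv (.mul (.l 1) (.l 2)))) 8)) (.mem 9 (.l 40))))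

theorem sx_r2_ev : sx.eval sx_r2_f = true := by decide +kernel

theorem sx_r2 {G : Type*} [Group G] {γ : ℕ → G} {k : ℕ} {N : List W} (g : Gf sx γ k N)
    (e : tyB sx k N sx_r2_f = true := by decide +kernel) :
    ∀ y ∈ genW γ (sx.ws 0), y * γ 3 = γ 3 * y → y * γ 7 = γ 7 * y → y ^ 8 = 1 → (y * (γ 1 * γ 2) * y * (γ 1 * γ 2)⁻¹) ^ 8 = 1 → y ∈ genW γ (sx.ws 9) :=
  g.transfer e sx_r2_ev

/-- a formula -/
def sx_r3_f : Fm := .all 0 40 [(.mul (.mul (.l 1) (.l 2)) (.l 3), .mul (.mul (.l 1) (.l 2)) (.l 3)), (.l 7, .l 7)] (.imp (.one (.pow (.l 40) 8)) (.mem 5 (.l 40)))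

theorem sx_r3_ev : sx.eval sx_r3_f = true := by decide +kernel

theorem sx_r3 {G : Type*} [Group G] {γ : ℕ → G} {k : ℕ} {N : List W} (g : Gf sx γ k N)
    (e : tyB sx k N sx_r3_f = true := by decide +kernel) :
    ∀ y ∈ genW γ (sx.ws 0), y * (γ 1 * γ 2 * γ 3) = γ 1 * γ 2 * γ 3 * y → y * γ 7 = γ 7 * y → y ^ 8 = 1 → y ∈ genW γ (sx.ws 5) :=
  g.transfer e sx_r3_ev

/-- a formula -/
def sx_yr_f : Fm := .all 11 40 [] (.imp (.one (.pow (.l 40) 8)) (.imp (.one (.pow (.mul (.mul (.mul (.l 40) (.mul (.l 1) (.l 2))) (.l 40)) (.inv (.mul (.l 1) (.l 2)))) 8)) (.imp (.one (.pow (.mul (.mul (.mul (.l 40) (.l 3)) (.l 40)) (.inv (.l 3))) 8)) (.eq (.mul (.l 40) (.mul (.mul (.mul (.l 9) (.mul (.l 1) (.l 2))) (.l 9)) (.inv (.mul (.l 1) (.l 2))))) (.mul (.mul (.mul (.mul (.l 9) (.mul (.l 1) (.l 2))) (.l 9)) (.inv (.mul (.l 1) (.l 2))))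 (.l 40))))))

theorem sx_yr_ev : sx.eval sx_yr_f = true := by decide +kernel

theorem sx_yr {G : Type*} [Group G] {γ : ℕ → G} {k : ℕ} {N : List W} (g : Gf sx γ k N)
    (e : tyB sx k N sx_yr_f = true := by decide +kernel) :
    ∀ y ∈ genW γ (sx.ws 11), y ^ 8 = 1 → (y * (γ 1 * γ 2) * y * (γ 1 * γ 2)⁻¹) ^ 8 = 1 → (y * γ 3 * y * (γ 3)⁻¹) ^ 8 = 1 → y * (γ 9 * (γ 1 * γ 2) * γ 9 * (γ 1 * γ 2)⁻¹) = γ 9 * (γ 1 * γ 2) * γ 9 * (γ 1 * γ 2)⁻¹ * y :=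
  g.transfer e sx_yr_ev

theorem sx_cr_ev : sx.cC 0 11 (.l 7) = true := by decide +kernel

theorem sx_cr {G : Type*} [Group G] {γ : ℕ → G} {k : ℕ} {N : List W} (g : Gf sx γ k N)
    (e : band (tyB sx k N (.all 0 40 [(.l 7, .l 7)] (.mem 11 (.l 40)))) (allP (sx.ws 11) fun t => sx.eval (.mem 0 t)) = true := by
      decide +kernel) :
    ∀ y ∈ genW γ (sx.ws 0), y * γ 7 = γ 7 * y → y ∈ genW γ (sx.ws 11) :=
  fun _ m c => gf_cen g 0 11 (.l 7) sx_cr_ev m c e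

/-- a formula -/
def sx_xr2_f : Fm := .all 9 40 [] (.or (.one (.l 40)) (.or (.eq (.l 40) (.l 7)) (.or (.eq (.l 9) (.l 40)) (.or (.eq (.l 9) (.mul (.mul (.mul (.l 1) (.l 2)) (.l 40)) (.inv (.mul (.l 1) (.l 2))))) (.or (.eq (.l 9) (.mul (.mul (.inv (.mul (.l 1) (.l 2))) (.l 40)) (.mul (.l 1) (.l 2)))) (.or (.eq (.l 9) (.mul (.l 7) (.l 40))) (.or (.eq (.l 9) (.mul (.l 7) (.mul (.mul (.mul (.l 1) (.l 2)) (.l 40)) (.inv (.mul (.l 1) (.l 2)))))) (.eq (.l 9) (.mul (.l 7) (.mul (.mul (.inv (.mul (.l 1) (.l 2))) (.l 40)) (.mul (.l 1) (.l 2))))))))))))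

theorem sx_xr2_ev : sx.eval sx_xr2_f = true := by decide +kernel

theorem sx_xr2 {G : Type*} [Group G] {γ : ℕ → G} {k : ℕ} {N : List W} (g : Gf sx γ k N)
    (e : tyB sx k N sx_xr2_f = true := by decide +kernel) :
    ∀ y ∈ genW γ (sx.ws 9), y = 1 ∨ y = γ 7 ∨ γ 9 = y ∨ γ 9 = γ 1 * γ 2 * y * (γ 1 * γ 2)⁻¹ ∨ γ 9 = (γ 1 * γ 2)⁻¹ * y * (γ 1 * γ 2) ∨ γ 9 = γ 7 * y ∨ γ 9 = γ 7 * (γ 1 * γ 2 * y * (γ 1 * γ 2)⁻¹) ∨ γ 9 = γ 7 * ((γ 1 * γ 2)⁻¹ * y * (γ 1 * γ 2)) :=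
  g.transfer e sx_xr2_ev

end Cfsg.Lib.S83
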