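import Cfsg.Agent.Lib.T3.Net

/-! Chains of known order in large degree (S3159, helper21). -/

set_option autoImplicit false

namespace Cfsg.Lib.S83

open Cfsg.Lib.Calc Cfsg.Lib.Grp Cfsg.Lib.T2 Cfsg.Lib.T3 Cfsg.Lib.Mathieu Subgroup
open Cfsg.Lib.Golay (force force_eq memL memL_iff)

/-- every member of `X` is a product of two earlier tables -/
noncomputable def slpM (n w : ℕ) (gs X D : List ℕ) : Bool :=
  forceL (idc n w :: gs ++ X) fun C => force (Nat.succ gs.length) fun r => allFrom r (Nat.sub C.length r) fun k =>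
    force (Calc.nth D (Nat.sub k r)) fun d => band (band (blt (Nat.mod d 1024) k) (blt (Nat.div d 1024) k))
      (Nat.beq (mul n w (Calc.nth C (Nat.mod d 1024)) (Calc.nth C (Nat.div d 1024))) (Calc.nth C k))

theorem in_of_slpM {G X : Type*} [Group G] [MulAction G X] {n w : ℕ} {pt : ℕ → X} (hw : n ≤ 2 ^ w) {K : Subgroup G}
    {gs Y D : List ℕ} (hg : In n w pt K gs) (e : slpM n w gs Y D = true) : In n w pt K Y := by
  simp only [slpM, forceL_eq, force_eq, allFrom_iff, band_eq_true, blt_iff, beq_iff] at e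
  generalize hC : idc n w :: gs ++ Y = C at e
  have key : ∀ k, k < C.length → ∃ g ∈ K, Rep n w pt g (Calc.nth C k) := fun k => by
    induction k using Nat.strong_induction_on with | _ k ih => ?_
    intro hk
    by_cases hr : k < (idc n w :: gs).length
    · subst hC
      rw [nth_eq, List.getD_eq_getElem _ _ hk, List.getElem_append_left hr]
      exact List.forall_mem_cons.2 ⟨⟨1, K.one_mem, Rep.one hw⟩, hg⟩ _ (List.getElem_mem hr)
    have hr' : gs.length + 1 ≤ k := not_lt.1 hr
    obtain ⟨⟨a, b⟩, c⟩ := e k hr' (by change k < gs.length + 1 + (C.length - (gs.length + 1)); omega)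
    obtain ⟨x, i, j⟩ := ih _ a (a.trans hk)
    obtain ⟨y, l, m⟩ := ih _ b (b.trans hk)
    exact ⟨_, mul_mem i l, c ▸ j.mul m⟩
  intro c hc
  obtain ⟨i, hi, rfl⟩ := List.getElem_of_mem (hC ▸ List.mem_append_right (idc n w :: gs) hc : c ∈ C)
  have := key i hi
  rwa [nth_eq, List.getD_eq_getElem _ _ hi] at this

/-- a chain certified by a presentation; `A` is a list of auxiliary tables -/
theorem ch_of_slpM {P : PM} [NeZero P.n] (h0 : P.ok0 = true) {k m : ℕ} {rels : List W} (hT : TB.{0} rels (P.ws k) m) (A : List ℕ)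
    (r : relsC P rels = true) (e : band (slpM P.n P.w ((P.ws k).map (wcode P.n P.w P.env)) (A ++ flat (P.Ls k)) (P.Ds k))
      (band (wOK P.n P.w (fun c => memL c (flat (P.Ls k))) (P.Ls k) []) (Nat.ble m (chSize (P.Ls k)))) = true) : Ch P k := by
  rw [band_eq_true, band_eq_true, ble_iff] at e
  have b := bounds h0
  have a := in_of_slpM b.2 (in_genW (inj_finPt _) b.2 (rp_of_ok0 h0) _) e.1
  have c := wChain_of_wOK (fun c hc => a c (List.mem_append_right _ (memL_iff.1 hc))) e.2.1
  exact ⟨c, c.sChain (inj_finPt _) ((hT _ _ ((rp_of_ok0 h0 0).eq_of_faithful (faithful_finPt _) (Rep.one b.2))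
    (rels_of_relsC h0 r)).2.trans e.2.2)⟩

end Cfsg.Lib.S83
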